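import Mathlib

/-!
# Quotients of B-groups, part 1 (helper11)

Elementary tools: splitting an element of finite order into a part killed by a power of `m`
and a part of order prime to `m`; the two corresponding subgroups of a commutative subgroup;
the order of `H ⊔ zpowers z` for commuting coprime data; and the comparison of orders of
"reduced" elements modulo an order-closed normal subgroup.
-/

set_option autoImplicit false

namespace Cfsg.Agent.Helper11

theorem bq_coprime_div (N m : ℕ) (hN : 0 < N) : (N / Nat.gcd N (m ^ N)).Coprime m := by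
  apply Nat.coprime_of_dvd
  intro q hq hqc hqm
  obtain ⟨v, r, hr, hNv⟩ := Nat.exists_eq_pow_mul_and_not_dvd hN.ne' q hq.ne_one
  have hv : v < N := by
    have h1 : q ^ v ∣ N := ⟨r, hNv⟩
    have h2 : q ^ v ≤ N := Nat.le_of_dvd hN h1
    exact lt_of_lt_of_le (Nat.lt_pow_self hq.one_lt) h2
  have h3 : q ^ v ∣ m ^ N := (pow_dvd_pow q hv.le).trans (pow_dvd_pow_of_dvd hqm N)
  have h4 : q ^ v ∣ Nat.gcd N (m ^ N) := Nat.dvd_gcd ⟨r, hNv⟩ h3
  have h5 : Nat.gcd N (m ^ N) * q ∣ N := Nat.mul_dvd_of_dvd_div (Nat.gcd_dvd_left _ _) hqc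
  have h6 : q ^ v * q ∣ q ^ v * r := by
    rw [← hNv]; exact (mul_dvd_mul_right h4 q).trans h5
  exact hr (Nat.dvd_of_mul_dvd_mul_left (pow_pos hq.pos v) h6)

/-- Every element of a finite group splits as a product of two of its powers, one killed by a
power of `m` and one of order prime to `m`. -/
theorem bq_split {Q : Type*} [Group Q] [Finite Q] (x : Q) (m : ℕ) :
    ∃ i j : ℤ, x = x ^ i * x ^ j ∧ (x ^ i) ^ (m ^ Nat.card Q) = 1 ∧
      (orderOf (x ^ j)).Coprime m := by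
  have hN : 0 < orderOf x := orderOf_pos x
  obtain ⟨g, hg⟩ : ∃ g, g = Nat.gcd (orderOf x) (m ^ orderOf x) := ⟨_, rfl⟩
  obtain ⟨c, hc⟩ : ∃ c, c = orderOf x / g := ⟨_, rfl⟩
  have hgN : g ∣ orderOf x := hg ▸ Nat.gcd_dvd_left _ _
  have hgc : g * c = orderOf x := by rw [hc]; exact Nat.mul_div_cancel' hgN
  have hcm : c.Coprime m := by rw [hc, hg]; exact bq_coprime_div _ m hN
  have hgm : g ∣ m ^ orderOf x := hg ▸ Nat.gcd_dvd_right _ _
  have hcop : Nat.Coprime g c :=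
    Nat.Coprime.coprime_dvd_left hgm (Nat.Coprime.pow_left _ hcm.symm)
  have hb : (g : ℤ) * Nat.gcdA g c + (c : ℤ) * Nat.gcdB g c = 1 := by
    have := Nat.gcd_eq_gcd_ab g c
    rw [hcop.gcd_eq_one] at this
    exact_mod_cast this.symm
  refine ⟨(c : ℤ) * Nat.gcdB g c, (g : ℤ) * Nat.gcdA g c, ?_, ?_, ?_⟩
  · rw [← zpow_add, add_comm, hb, zpow_one]
  · have h1 : (x ^ ((c : ℤ) * Nat.gcdB g c)) ^ g = 1 := by
      rw [← zpow_natCast, ← zpow_mul]
      have : (c : ℤ) * Nat.gcdB g c * (g : ℤ) = (orderOf x : ℤ) * Nat.gcdB g c := by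
        rw [← hgc]; push_cast; ring
      rw [this, zpow_mul, zpow_natCast, pow_orderOf_eq_one, one_zpow]
    have h2 : g ∣ m ^ Nat.card Q :=
      hgm.trans (pow_dvd_pow m (Nat.le_of_dvd Nat.card_pos (orderOf_dvd_natCard x)))
    obtain ⟨t, ht⟩ := h2
    rw [ht, pow_mul, h1, one_pow]
  · have h1 : (x ^ ((g : ℤ) * Nat.gcdA g c)) ^ c = 1 := by
      rw [← zpow_natCast, ← zpow_mul]
      have : (g : ℤ) * Nat.gcdA g c * (c : ℤ) = (orderOf x : ℤ) * Nat.gcdA g c := by
        rw [← hgc]; push_cast; ring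
      rw [this, zpow_mul, zpow_natCast, pow_orderOf_eq_one, one_zpow]
    exact Nat.Coprime.coprime_dvd_left (orderOf_dvd_of_pow_eq_one h1) hcm

/-- The elements of a commutative subgroup killed by `E`. -/
def bqPow {Q : Type*} [Group Q] (A : Subgroup Q) (hA : ∀ x ∈ A, ∀ y ∈ A, x * y = y * x)
    (E : ℕ) : Subgroup Q where
  carrier := {x | x ∈ A ∧ x ^ E = 1}
  one_mem' := ⟨A.one_mem, one_pow E⟩
  mul_mem' := by
    rintro x y ⟨hx, hx1⟩ ⟨hy, hy1⟩
    refine ⟨A.mul_mem hx hy, ?_⟩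
    rw [(show Commute x y from hA x hx y hy).mul_pow, hx1, hy1, one_mul]
  inv_mem' := by
    rintro x ⟨hx, hx1⟩
    exact ⟨A.inv_mem hx, by rw [inv_pow, hx1, inv_one]⟩

/-- The elements of a commutative subgroup of order prime to `m`. -/
def bqCop {Q : Type*} [Group Q] (A : Subgroup Q) (hA : ∀ x ∈ A, ∀ y ∈ A, x * y = y * x)
    (m : ℕ) : Subgroup Q where
  carrier := {x | x ∈ A ∧ (orderOf x).Coprime m}
  one_mem' := ⟨A.one_mem, by rw [orderOf_one]; exact Nat.coprime_one_left m⟩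
  mul_mem' := by
    rintro x y ⟨hx, hx1⟩ ⟨hy, hy1⟩
    refine ⟨A.mul_mem hx hy, ?_⟩
    have h := (show Commute x y from hA x hx y hy).orderOf_mul_dvd_lcm
    exact Nat.Coprime.coprime_dvd_left (h.trans (Nat.lcm_dvd_mul _ _))
      (Nat.Coprime.mul_left hx1 hy1)
  inv_mem' := by
    rintro x ⟨hx, hx1⟩
    exact ⟨A.inv_mem hx, by rw [orderOf_inv]; exact hx1⟩

theorem mem_bqPow {Q : Type*} [Group Q] (A : Subgroup Q) (hA : ∀ x ∈ A, ∀ y ∈ A, x * y = y * x)
    (E : ℕ) (x : Q) : x ∈ bqPow A hA E ↔ x ∈ A ∧ x ^ E = 1 := Iff.rfl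

theorem mem_bqCop {Q : Type*} [Group Q] (A : Subgroup Q) (hA : ∀ x ∈ A, ∀ y ∈ A, x * y = y * x)
    (m : ℕ) (x : Q) : x ∈ bqCop A hA m ↔ x ∈ A ∧ (orderOf x).Coprime m := Iff.rfl

/-- Order of `H ⊔ zpowers z` when `z` centralizes `H` and the orders are coprime. -/
theorem bq_card_sup {Q : Type*} [Group Q] [Finite Q] (H : Subgroup Q) (z : Q)
    (hz : ∀ h ∈ H, z * h = h * z) (hcop : (Nat.card H).Coprime (orderOf z)) :
    Nat.card ↥(H ⊔ Subgroup.zpowers z) = Nat.card H * orderOf z := by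
  apply Nat.dvd_antisymm
  · -- the product map is onto
    let φ : ↥H × ↥(Subgroup.zpowers z) →* Q :=
      MonoidHom.noncommCoprod H.subtype (Subgroup.zpowers z).subtype (by
        rintro ⟨h, hh⟩ ⟨w, hw⟩
        obtain ⟨i, rfl⟩ := Subgroup.mem_zpowers_iff.mp hw
        exact ((show Commute z h from hz h hh).zpow_left i).symm)
    have hle : H ⊔ Subgroup.zpowers z ≤ φ.range := by
      apply sup_le
      · intro h hh
        exact ⟨(⟨h, hh⟩, 1), by simp [φ]⟩
      · intro w hw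
        exact ⟨(1, ⟨w, hw⟩), by simp [φ]⟩
    have h1 : Nat.card ↥(H ⊔ Subgroup.zpowers z) ∣ Nat.card ↥φ.range :=
      Subgroup.card_dvd_of_le hle
    have h2 : Nat.card ↥φ.range ∣ Nat.card (↥H × ↥(Subgroup.zpowers z)) :=
      Subgroup.card_range_dvd φ
    rw [Nat.card_prod, Nat.card_zpowers] at h2
    exact h1.trans h2
  · apply Nat.Coprime.mul_dvd_of_dvd_of_dvd hcop
    · exact Subgroup.card_dvd_of_le le_sup_left
    · rw [← Nat.card_zpowers]
      exact Subgroup.card_dvd_of_le le_sup_right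

/-- Commutativity of `H ⊔ zpowers z` when `H` is commutative and `z` centralizes `H`. -/
theorem bq_comm_sup {Q : Type*} [Group Q] (H : Subgroup Q) (z : Q)
    (hH : ∀ x ∈ H, ∀ y ∈ H, x * y = y * x) (hz : ∀ h ∈ H, z * h = h * z) :
    ∀ x ∈ H ⊔ Subgroup.zpowers z, ∀ y ∈ H ⊔ Subgroup.zpowers z, x * y = y * x := by
  have h1 : H ⊔ Subgroup.zpowers z ≤ Subgroup.centralizer ((H : Set Q) ∪ {z}) := by
    apply sup_le
    · intro x hx
      rw [Subgroup.mem_centralizer_iff]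
      rintro y (hy | hy)
      · exact hH y hy x hx
      · rw [Set.mem_singleton_iff] at hy; rw [hy]; exact hz x hx
    · rw [Subgroup.zpowers_le, Subgroup.mem_centralizer_iff]
      rintro y (hy | hy)
      · exact (hz y hy).symm
      · rw [Set.mem_singleton_iff] at hy; rw [hy]
  have key : ∀ x ∈ H ⊔ Subgroup.zpowers z,
      H ⊔ Subgroup.zpowers z ≤ Subgroup.centralizer ({x} : Set Q) := by
    intro x hx
    have hx' := Subgroup.mem_centralizer_iff.mp (h1 hx)
    apply sup_le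
    · intro y hy
      rw [Subgroup.mem_centralizer_iff]
      intro w hw
      rw [Set.mem_singleton_iff] at hw; rw [hw]
      exact (hx' y (Or.inl hy)).symm
    · rw [Subgroup.zpowers_le, Subgroup.mem_centralizer_iff]
      intro w hw
      rw [Set.mem_singleton_iff] at hw; rw [hw]
      exact (hx' z (Or.inr rfl)).symm
  intro x hx y hy
  exact (Subgroup.mem_centralizer_iff.mp (key x hx hy)) x rfl

/-- `d ^ t ∈ M` iff the order of `d` modulo `M` divides `t`. -/
theorem bq_pow_mem_iff {G : Type*} [Group G] (M : Subgroup G) [M.Normal] (d : G) (t : ℕ) :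
    d ^ t ∈ M ↔ orderOf (QuotientGroup.mk' M d) ∣ t := by
  rw [orderOf_dvd_iff_pow_eq_one, ← map_pow, QuotientGroup.mk'_apply, QuotientGroup.eq_one_iff]

theorem bq_order_dvd {G : Type*} [Group G] [Finite G] (M : Subgroup G) [M.Normal]
    (hcl : ∀ a : G, (∃ m ∈ M, orderOf m = orderOf a) → a ∈ M) (d₁ d₂ : G)
    (hred : ∀ q : ℕ, q.Prime → q ∣ orderOf d₁ → q ∣ orderOf (QuotientGroup.mk' M d₁))
    (h : orderOf (QuotientGroup.mk' M d₁) = orderOf (QuotientGroup.mk' M d₂)) :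
    orderOf d₁ ∣ orderOf d₂ := by
  obtain ⟨a, ha⟩ : ∃ a, a = orderOf (QuotientGroup.mk' M d₁) := ⟨_, rfl⟩
  have ha1 : a ∣ orderOf d₁ := by rw [ha]; exact orderOf_map_dvd _ d₁
  have ha2 : a ∣ orderOf d₂ := by rw [ha, h]; exact orderOf_map_dvd _ d₂
  obtain ⟨L₁, hL₁⟩ := ha1
  obtain ⟨L₂, hL₂⟩ := ha2
  have hapos : 0 < a := by rw [ha]; exact orderOf_pos _
  have hLL : L₁ ∣ L₂ := by
    rw [Nat.dvd_iff_prime_pow_dvd_dvd]
    intro q k hq
    induction k with
    | zero => intro _; simp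
    | succ k ih =>
      intro hk
      have hk' : q ^ k ∣ L₁ := (pow_dvd_pow q (Nat.le_succ k)).trans hk
      have ih' := ih hk'
      have hN₁ : q ^ (k + 1) ∣ orderOf d₁ := by rw [hL₁]; exact hk.trans (dvd_mul_left L₁ a)
      have hqa : q ∣ a := by
        rw [ha]; apply hred q hq
        exact (dvd_pow_self q (Nat.succ_ne_zero k)).trans hN₁
      have hN₂ : q ^ (k + 1) ∣ orderOf d₂ := by
        rw [hL₂, pow_succ, mul_comm]
        exact mul_dvd_mul hqa ih'
      have hz : orderOf (d₂ ^ (orderOf d₂ / q ^ (k + 1))) = q ^ (k + 1) :=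
        orderOf_pow_orderOf_div (orderOf_pos d₂).ne' hN₂
      have hw : orderOf (d₁ ^ (orderOf d₁ / q ^ (k + 1))) = q ^ (k + 1) :=
        orderOf_pow_orderOf_div (orderOf_pos d₁).ne' hN₁
      have hwM : d₁ ^ (orderOf d₁ / q ^ (k + 1)) ∈ M := by
        rw [bq_pow_mem_iff, ← ha, hL₁, Nat.mul_div_assoc a hk]
        exact dvd_mul_right a _
      have hzM : d₂ ^ (orderOf d₂ / q ^ (k + 1)) ∈ M := hcl _ ⟨_, hwM, by rw [hw, hz]⟩
      rw [bq_pow_mem_iff, ← h, ← ha] at hzM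
      obtain ⟨s, hs⟩ := hzM
      have h3 : orderOf d₂ = q ^ (k + 1) * (a * s) := by
        rw [← hs]; exact (Nat.mul_div_cancel' hN₂).symm
      rw [hL₂] at h3
      have h4 : L₂ = q ^ (k + 1) * s := by
        apply Nat.eq_of_mul_eq_mul_left hapos
        rw [h3]; ring
      exact ⟨s, h4⟩
  rw [hL₁, hL₂]
  exact mul_dvd_mul_left a hLL

theorem bq_order_eq {G : Type*} [Group G] [Finite G] (M : Subgroup G) [M.Normal]
    (hcl : ∀ a : G, (∃ m ∈ M, orderOf m = orderOf a) → a ∈ M) (d₁ d₂ : G)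
    (hred₁ : ∀ q : ℕ, q.Prime → q ∣ orderOf d₁ → q ∣ orderOf (QuotientGroup.mk' M d₁))
    (hred₂ : ∀ q : ℕ, q.Prime → q ∣ orderOf d₂ → q ∣ orderOf (QuotientGroup.mk' M d₂))
    (h : orderOf (QuotientGroup.mk' M d₁) = orderOf (QuotientGroup.mk' M d₂)) :
    orderOf d₁ = orderOf d₂ :=
  Nat.dvd_antisymm (bq_order_dvd M hcl d₁ d₂ hred₁ h) (bq_order_dvd M hcl d₂ d₁ hred₂ h.symm)

end Cfsg.Agent.Helper11
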