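import Mathlib
import Cfsg.Agent.Helper11.BQuot1
import Cfsg.Agent.S3908
import Cfsg.Agent.S3909
import Cfsg.Agent.S0022

/-!
# Quotients of B-groups, part 2 (helper11)

A B-group is a finite group in which any two abelian subgroups of the same order are conjugate.
For a normal subgroup `M` of odd order, every abelian subgroup of `G ⧸ M` lifts to an abelian
subgroup of `G` of a canonical order, so `G ⧸ M` is again a B-group.
-/

set_option autoImplicit false

namespace Cfsg.Agent.Helper11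

open Cfsg

section

variable {G : Type*} [Group G] [Finite G]

/-- For a prime `p` dividing `|M|`, the `p`-subgroups of `G ⧸ M` are cyclic. -/
theorem bq_quot_cyclic
    (hS : ∀ (p : ℕ) [Fact p.Prime], p ≠ 2 → ∀ P : Sylow p G,
      IsCyclic ↥(P : Subgroup G) ∨ ∀ x ∈ (P : Subgroup G), x ^ p = 1)
    (M : Subgroup G) [M.Normal] (hM : Odd (Nat.card ↥M))
    (hcl : ∀ a : G, (∃ m ∈ M, orderOf m = orderOf a) → a ∈ M)
    (p : ℕ) [Fact p.Prime] (hpm : p ∣ Nat.card ↥M) (S : Subgroup (G ⧸ M)) (hSp : IsPGroup p ↥S) :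
    IsCyclic ↥S := by
  have hp : p.Prime := Fact.out
  have hp2 : p ≠ 2 := by
    rintro rfl
    exact (Nat.not_even_iff_odd.mpr hM) (even_iff_two_dvd.mpr hpm)
  obtain ⟨Q, hSQ⟩ := hSp.exists_le_sylow
  obtain ⟨P', hP'⟩ := Sylow.mapSurjective_surjective (QuotientGroup.mk'_surjective M) p Q
  have hQcoe : (Q : Subgroup (G ⧸ M)) = (P' : Subgroup G).map (QuotientGroup.mk' M) := by
    rw [← hP']; rfl
  have hcyc : IsCyclic ↥((P' : Subgroup G).map (QuotientGroup.mk' M)) := by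
    rcases hS p hp2 P' with h | h
    · haveI := h
      exact isCyclic_of_surjective ((QuotientGroup.mk' M).subgroupMap (P' : Subgroup G))
        (MonoidHom.subgroupMap_surjective _ _)
    · obtain ⟨m₀, hm₀⟩ := exists_prime_orderOf_dvd_card' (G := ↥M) p hpm
      have hPM : (P' : Subgroup G) ≤ M := by
        intro x hx
        have hdiv : orderOf x ∣ p := orderOf_dvd_of_pow_eq_one (h x hx)
        rcases (Nat.dvd_prime hp).mp hdiv with h1 | h1
        · rw [orderOf_eq_one_iff] at h1; rw [h1]; exact M.one_mem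
        · exact hcl x ⟨(m₀ : G), m₀.2, by rw [Subgroup.orderOf_coe, hm₀, h1]⟩
      have hbot : (P' : Subgroup G).map (QuotientGroup.mk' M) = ⊥ := by
        rw [Subgroup.map_eq_bot_iff, QuotientGroup.ker_mk']; exact hPM
      rw [hbot]; infer_instance
  haveI hQc : IsCyclic ↥(Q : Subgroup (G ⧸ M)) := by rw [hQcoe]; exact hcyc
  haveI : IsCyclic ↥(S.subgroupOf (Q : Subgroup (G ⧸ M))) := inferInstance
  exact isCyclic_of_surjective (Subgroup.subgroupOfEquivOfLe hSQ) (MulEquiv.surjective _)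

/-- Every abelian subgroup of `G ⧸ M` has an abelian lift `X ⊔ zpowers d` of controlled shape. -/
theorem bq_lift
    (hB : ∀ A B : Subgroup G, IsMulCommutative ↥A → IsMulCommutative ↥B →
      Nat.card ↥A = Nat.card ↥B → ∃ g : G, B = A.map (MulAut.conj g).toMonoidHom)
    (M : Subgroup G) [M.Normal] (hM : Odd (Nat.card ↥M))
    (Abar : Subgroup (G ⧸ M)) (hAb : ∀ x ∈ Abar, ∀ y ∈ Abar, x * y = y * x) :
    ∃ (X : Subgroup G) (d : G),
      (∀ x ∈ X, ∀ y ∈ X, x * y = y * x) ∧ (∀ x ∈ X, d * x = x * d) ∧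
      (Nat.card ↥X).Coprime (Nat.card ↥M) ∧
      (∀ q : ℕ, q.Prime → q ∣ orderOf d → q ∣ orderOf (QuotientGroup.mk' M d)) ∧
      orderOf (QuotientGroup.mk' M d) ∣ Nat.card ↥M ^ Nat.card (G ⧸ M) ∧
      (X ⊔ Subgroup.zpowers d).map (QuotientGroup.mk' M) = Abar ∧
      Nat.card ↥Abar = Nat.card ↥X * orderOf (QuotientGroup.mk' M d) := by
  classical
  have hS := (Cfsg.Agent.S3908.result hB).2
  have hcl := (Cfsg.Agent.S3909.result hB M).1
  obtain ⟨m, hm⟩ : ∃ m, m = Nat.card ↥M := ⟨_, rfl⟩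
  obtain ⟨E, hE⟩ : ∃ E, E = m ^ Nat.card (G ⧸ M) := ⟨_, rfl⟩
  obtain ⟨U, hU⟩ : ∃ U, U = bqCop Abar hAb m := ⟨_, rfl⟩
  obtain ⟨W, hW⟩ : ∃ W, W = bqPow Abar hAb E := ⟨_, rfl⟩
  have hmemU : ∀ x, x ∈ U → x ∈ Abar ∧ (orderOf x).Coprime m := by
    intro x hx; rw [hU] at hx; exact hx
  have hmemW : ∀ x, x ∈ W → x ∈ Abar ∧ x ^ E = 1 := by
    intro x hx; rw [hW] at hx; exact hx
  have hUA : U ≤ Abar := fun x hx => (hmemU x hx).1
  have hWA : W ≤ Abar := fun x hx => (hmemW x hx).1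
  have hUcop : (Nat.card ↥U).Coprime m := by
    apply Nat.coprime_of_dvd
    intro q hq hqU hqm
    haveI : Fact q.Prime := ⟨hq⟩
    obtain ⟨y, hy⟩ := exists_prime_orderOf_dvd_card' (G := ↥U) q hqU
    have hy2 : (orderOf (y : G ⧸ M)).Coprime m := (hmemU _ y.2).2
    rw [Subgroup.orderOf_coe, hy] at hy2
    exact (Nat.Prime.coprime_iff_not_dvd hq).mp hy2 hqm
  -- the complement `X`
  obtain ⟨A₁, hA₁⟩ : ∃ A₁, A₁ = U.comap (QuotientGroup.mk' M) := ⟨_, rfl⟩
  have hA₁mem : ∀ a, a ∈ A₁ ↔ QuotientGroup.mk' M a ∈ U := by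
    intro a; rw [hA₁]; exact Iff.rfl
  have hMA₁ : M ≤ A₁ := by
    intro x hx
    rw [hA₁mem, QuotientGroup.mk'_apply, (QuotientGroup.eq_one_iff x).mpr hx]
    exact U.one_mem
  have hrel : M.relIndex A₁ = Nat.card ↥U := by
    have h1 := Subgroup.relIndex_mul_index hMA₁
    have h2 : A₁.index = U.index := by
      rw [hA₁]; exact Subgroup.index_comap_of_surjective U (QuotientGroup.mk'_surjective M)
    have h3 : M.index = Nat.card ↥U * U.index := by
      rw [Subgroup.index_eq_card, ← Subgroup.card_mul_index U]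
    rw [h2, h3] at h1
    exact Nat.eq_of_mul_eq_mul_right (Nat.pos_of_ne_zero Subgroup.index_ne_zero_of_finite) h1
  have hcopSZ : (Nat.card (M.subgroupOf A₁)).Coprime (M.subgroupOf A₁).index := by
    have h1 : Nat.card (M.subgroupOf A₁) = Nat.card ↥M :=
      Nat.card_congr (Subgroup.subgroupOfEquivOfLe hMA₁).toEquiv
    have h2 : (M.subgroupOf A₁).index = Nat.card ↥U := hrel
    rw [h1, h2, ← hm]; exact hUcop.symm
  obtain ⟨X', hX'⟩ := Subgroup.exists_right_complement'_of_coprime hcopSZ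
  obtain ⟨X, hXdef⟩ : ∃ X, X = X'.map A₁.subtype := ⟨_, rfl⟩
  have hXA₁ : X ≤ A₁ := by rw [hXdef]; exact Subgroup.map_subtype_le X'
  have hXM : ∀ x ∈ X, x ∈ M → x = 1 := by
    intro x hx hxM
    rw [hXdef] at hx
    obtain ⟨a', ha', rfl⟩ := hx
    have h1 : a' ∈ M.subgroupOf A₁ ⊓ X' := ⟨Subgroup.mem_subgroupOf.mpr hxM, ha'⟩
    rw [hX'.disjoint.eq_bot, Subgroup.mem_bot] at h1
    rw [h1]; rfl
  have hXsup : ∀ a ∈ A₁, ∃ x ∈ X, x⁻¹ * a ∈ M := by
    intro a ha
    obtain ⟨⟨h, x⟩, hhx⟩ := hX'.2 ⟨a, ha⟩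
    have ha' : a = ((h : A₁) : G) * ((x : A₁) : G) := by
      have := congrArg Subtype.val hhx
      exact this.symm
    refine ⟨((x : A₁) : G), ?_, ?_⟩
    · rw [hXdef]; exact ⟨(x : A₁), x.2, rfl⟩
    · rw [ha']
      have hh : ((h : A₁) : G) ∈ M := Subgroup.mem_subgroupOf.mp h.2
      have := (inferInstance : M.Normal).conj_mem _ hh (((x : A₁) : G))⁻¹
      simpa [mul_assoc] using this
  have hXcard : Nat.card ↥X = Nat.card ↥U := by
    rw [hXdef, Subgroup.card_map_of_injective A₁.subtype_injective, ← hX'.symm.index_eq_card]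
    exact hrel
  have hXU : ∀ x ∈ X, QuotientGroup.mk' M x ∈ U := fun x hx => (hA₁mem x).mp (hXA₁ hx)
  have hXAbar : ∀ x ∈ X, QuotientGroup.mk' M x ∈ Abar := fun x hx => hUA (hXU x hx)
  have hXc : ∀ x ∈ X, ∀ y ∈ X, x * y = y * x := by
    intro x hx y hy
    have h1 : QuotientGroup.mk' M (x * y * x⁻¹ * y⁻¹) = 1 := by
      rw [map_mul, map_mul, map_mul, map_inv, map_inv, hAb _ (hXAbar x hx) _ (hXAbar y hy)]
      group
    have h2 : x * y * x⁻¹ * y⁻¹ ∈ M := by
      rwa [QuotientGroup.mk'_apply, QuotientGroup.eq_one_iff] at h1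
    have h3 : x * y * x⁻¹ * y⁻¹ ∈ X :=
      X.mul_mem (X.mul_mem (X.mul_mem hx hy) (X.inv_mem hx)) (X.inv_mem hy)
    have h4 := hXM _ h3 h2
    calc x * y = (x * y * x⁻¹ * y⁻¹) * (y * x) := by group
      _ = y * x := by rw [h4, one_mul]
  have hXmap : X.map (QuotientGroup.mk' M) = U := by
    apply le_antisymm
    · rintro _ ⟨x, hx, rfl⟩; exact hXU x hx
    · intro u hu
      obtain ⟨a, ha⟩ := QuotientGroup.mk'_surjective M u
      have haA : a ∈ A₁ := by rw [hA₁mem, ha]; exact hu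
      obtain ⟨x, hx, hxa⟩ := hXsup a haA
      refine ⟨x, hx, ?_⟩
      rw [← ha]
      exact QuotientGroup.eq.mpr hxa
  have hXcardm : (Nat.card ↥X).Coprime m := by rw [hXcard]; exact hUcop
  -- `W` is cyclic
  have hWcyc : ∃ dbar ∈ W, ∀ y ∈ W, y ∈ Subgroup.zpowers dbar := by
    have hnil : Group.IsNilpotent ↥W := by
      letI : CommGroup ↥W := { (inferInstance : Group ↥W) with
        mul_comm := fun a b => Subtype.ext (hAb a.1 (hWA a.2) b.1 (hWA b.2)) }
      exact CommGroup.isNilpotent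
    have hZ : IsZGroup ↥W := by
      refine ⟨fun p hpF P => ?_⟩
      haveI : Fact p.Prime := ⟨hpF⟩
      by_cases hpm : p ∣ m
      · have hSp : IsPGroup p ↥((P : Subgroup ↥W).map W.subtype) := P.2.map W.subtype
        haveI := bq_quot_cyclic hS M hM hcl p (hm ▸ hpm) _ hSp
        exact isCyclic_of_surjective
          ((Subgroup.equivMapOfInjective (P : Subgroup ↥W) W.subtype W.subtype_injective).symm)
          (MulEquiv.surjective _)
      · have key : ∀ c : ↥(P : Subgroup ↥W), c = 1 := by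
          intro c
          obtain ⟨j, hj⟩ := (IsPGroup.iff_orderOf.mp P.2) c
          have h1 : ((c : ↥W) : G ⧸ M) ^ E = 1 := (hmemW _ (c : ↥W).2).2
          have h2 : orderOf (((c : ↥W) : G ⧸ M)) ∣ E := orderOf_dvd_of_pow_eq_one h1
          rw [Subgroup.orderOf_coe, Subgroup.orderOf_coe, hj] at h2
          rcases Nat.eq_zero_or_pos j with hj0 | hj0
          · rw [hj0, pow_zero] at hj
            exact orderOf_eq_one_iff.mp hj
          · exfalso
            apply hpm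
            have hp : p.Prime := Fact.out
            have h3 : p ∣ E := (dvd_pow_self p hj0.ne').trans h2
            rw [hE] at h3
            exact hp.dvd_of_dvd_pow h3
        haveI : Subsingleton ↥(P : Subgroup ↥W) := ⟨fun a b => by rw [key a, key b]⟩
        infer_instance
    haveI := hnil
    haveI := hZ
    haveI hc : IsCyclic ↥W := inferInstance
    obtain ⟨g, hg⟩ := IsCyclic.exists_generator (α := ↥W)
    refine ⟨(g : G ⧸ M), g.2, fun y hy => ?_⟩
    obtain ⟨i, hi⟩ := Subgroup.mem_zpowers_iff.mp (hg ⟨y, hy⟩)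
    rw [Subgroup.mem_zpowers_iff]
    refine ⟨i, ?_⟩
    have := congrArg Subtype.val hi
    simpa using this
  obtain ⟨dbar, hdW, hdgen⟩ := hWcyc
  have hdA : dbar ∈ Abar := hWA hdW
  have hdE : dbar ^ E = 1 := (hmemW _ hdW).2
  obtain ⟨k, hk⟩ := QuotientGroup.mk'_surjective M dbar
  obtain ⟨K, hKdef⟩ : ∃ K, K = (Subgroup.zpowers dbar).comap (QuotientGroup.mk' M) := ⟨_, rfl⟩
  have hKmem : ∀ z, z ∈ K ↔ QuotientGroup.mk' M z ∈ Subgroup.zpowers dbar := by
    intro z; rw [hKdef]; exact Iff.rfl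
  have hzpA : ∀ y ∈ Subgroup.zpowers dbar, y ∈ Abar := by
    intro y hy
    obtain ⟨i, rfl⟩ := Subgroup.mem_zpowers_iff.mp hy
    exact Abar.zpow_mem hdA i
  have hzpE : ∀ y ∈ Subgroup.zpowers dbar, y ^ E = 1 := by
    intro y hy
    obtain ⟨i, rfl⟩ := Subgroup.mem_zpowers_iff.mp hy
    rw [← zpow_natCast, ← zpow_mul, mul_comm, zpow_mul, zpow_natCast, hdE, one_zpow]
  have hAK : X ≤ Subgroup.normalizer (K : Set G) := by
    intro x hx
    rw [Subgroup.mem_normalizer_iff]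
    intro h
    have hc : ∀ y ∈ Abar,
        QuotientGroup.mk' M x * y * (QuotientGroup.mk' M x)⁻¹ = y := by
      intro y hy
      rw [hAb _ (hXAbar x hx) _ hy, mul_inv_cancel_right]
    constructor
    · intro hh
      have hh' := (hKmem h).mp hh
      apply (hKmem _).mpr
      rw [map_mul, map_mul, map_inv, hc _ (hzpA _ hh')]; exact hh'
    · intro hh
      have hh' := (hKmem _).mp hh
      apply (hKmem _).mpr
      have hy := hzpA _ hh'
      rw [map_mul, map_mul, map_inv] at hy hh'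
      have hhA : QuotientGroup.mk' M h ∈ Abar := by
        have := Abar.mul_mem (Abar.mul_mem (Abar.inv_mem (hXAbar x hx)) hy) (hXAbar x hx)
        simpa [mul_assoc] using this
      rw [hc _ hhA] at hh'
      exact hh'
  have hKcop : (Nat.card ↥X).Coprime (Nat.card ↥K) := by
    apply Nat.coprime_of_dvd
    intro q hq hqX hqK
    haveI : Fact q.Prime := ⟨hq⟩
    obtain ⟨z, hz⟩ := exists_prime_orderOf_dvd_card' (G := ↥K) q hqK
    have h1 : QuotientGroup.mk' M ((z : G) ^ E) = 1 := by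
      rw [map_pow]; exact hzpE _ ((hKmem _).mp z.2)
    have h2 : (z : G) ^ E ∈ M := by
      rwa [QuotientGroup.mk'_apply, QuotientGroup.eq_one_iff] at h1
    have h3 : ((z : G) ^ E) ^ m = 1 := by
      have := pow_card_eq_one' (G := ↥M) (x := ⟨(z : G) ^ E, h2⟩)
      rw [← hm] at this
      simpa using congrArg Subtype.val this
    have h4 : orderOf (z : G) ∣ E * m := by
      apply orderOf_dvd_of_pow_eq_one; rw [pow_mul]; exact h3
    rw [Subgroup.orderOf_coe, hz] at h4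
    have h5 : q ∣ m := by
      rcases (Nat.Prime.dvd_mul hq).mp h4 with h | h
      · rw [hE] at h; exact hq.dvd_of_dvd_pow h
      · exact h
    exact (Nat.Prime.coprime_iff_not_dvd hq).mp (Nat.Coprime.coprime_dvd_left hqX hXcardm) h5
  have hXsolv : Group.IsSolvable ↥X :=
    Group.isSolvable_of_comm (fun a b => Subtype.ext (hXc a.1 a.2 b.1 b.2))
  have hMK : M ≤ K := by
    intro x hx
    rw [hKmem, QuotientGroup.mk'_apply, (QuotientGroup.eq_one_iff x).mpr hx]
    exact Subgroup.one_mem _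
  have hnormM : ∀ (S : Subgroup G), S ≤ Subgroup.normalizer (M : Set G) := by
    intro S x _
    rw [Subgroup.mem_normalizer_iff]
    intro h
    exact ⟨fun hh => (inferInstance : M.Normal).conj_mem h hh x, fun hh => by
      have := (inferInstance : M.Normal).conj_mem _ hh x⁻¹
      simpa [mul_assoc] using this⟩
  have hkK : k ∈ K := by rw [hKmem, hk]; exact Subgroup.mem_zpowers dbar
  have hfix : ∀ a ∈ X, a * k * a⁻¹ * k⁻¹ ∈ M := by
    intro a ha
    have h1 : QuotientGroup.mk' M (a * k * a⁻¹ * k⁻¹) = 1 := by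
      rw [map_mul, map_mul, map_mul, map_inv, map_inv, hk, hAb _ (hXAbar a ha) _ hdA]
      group
    rwa [QuotientGroup.mk'_apply, QuotientGroup.eq_one_iff] at h1
  obtain ⟨c, hcKC, hcM⟩ := Cfsg.Agent.S0022.result X K hAK hKcop (Or.inl hXsolv) M hMK
    (hnormM K) (hnormM X) k hkK hfix
  have hcX : ∀ x ∈ X, x * c = c * x :=
    fun x hx => (Subgroup.mem_centralizer_iff.mp hcKC.2) x hx
  have hcbar : QuotientGroup.mk' M c = dbar := by
    have h1 : QuotientGroup.mk' M (k⁻¹ * c) = 1 := by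
      rw [QuotientGroup.mk'_apply]; exact (QuotientGroup.eq_one_iff _).mpr hcM
    rw [map_mul, map_inv, hk] at h1
    exact (inv_mul_eq_one.mp h1).symm
  -- strip `c`
  obtain ⟨a', ha'⟩ : ∃ a', a' = orderOf dbar := ⟨_, rfl⟩
  obtain ⟨i, j, hsplit, hi, hj⟩ := bq_split c a'
  obtain ⟨d, hd⟩ : ∃ d, d = c ^ i := ⟨_, rfl⟩
  have hjM : QuotientGroup.mk' M (c ^ j) = 1 := by
    rw [← orderOf_eq_one_iff]
    have h1 : orderOf (QuotientGroup.mk' M (c ^ j)) ∣ orderOf (c ^ j) := orderOf_map_dvd _ _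
    have h2 : orderOf (QuotientGroup.mk' M (c ^ j)) ∣ a' := by
      rw [map_zpow, hcbar]
      apply orderOf_dvd_of_pow_eq_one
      rw [← zpow_natCast, ← zpow_mul, mul_comm, zpow_mul, zpow_natCast, ha', pow_orderOf_eq_one,
        one_zpow]
    have h3 := Nat.dvd_gcd h1 h2
    rw [hj.gcd_eq_one] at h3
    exact Nat.dvd_one.mp h3
  have hdbar : QuotientGroup.mk' M d = dbar := by
    have h1 : QuotientGroup.mk' M c =
        QuotientGroup.mk' M (c ^ i) * QuotientGroup.mk' M (c ^ j) := by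
      rw [← map_mul, ← hsplit]
    rw [hjM, mul_one, hcbar] at h1
    rw [hd]; exact h1.symm
  have hdX : ∀ x ∈ X, d * x = x * d := by
    intro x hx
    rw [hd]
    exact ((show Commute c x from (hcX x hx).symm).zpow_left i)
  have hdord : orderOf d ∣ a' ^ Nat.card G := by
    rw [hd]; exact orderOf_dvd_of_pow_eq_one hi
  have hdred : ∀ q : ℕ, q.Prime → q ∣ orderOf d → q ∣ orderOf (QuotientGroup.mk' M d) := by
    intro q hq hqd
    rw [hdbar, ← ha']
    exact hq.dvd_of_dvd_pow (hqd.trans hdord)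
  have hdpi : orderOf (QuotientGroup.mk' M d) ∣ Nat.card ↥M ^ Nat.card (G ⧸ M) := by
    rw [hdbar, ← hm, ← hE]; exact orderOf_dvd_of_pow_eq_one hdE
  -- `Abar = U ⊔ zpowers dbar`
  have hAsup : Abar = U ⊔ Subgroup.zpowers dbar := by
    apply le_antisymm
    · intro y hy
      obtain ⟨i', j', hs, hi', hj'⟩ := bq_split y m
      rw [hs]
      apply Subgroup.mul_mem
      · apply (le_sup_right : Subgroup.zpowers dbar ≤ U ⊔ Subgroup.zpowers dbar)
        apply hdgen
        rw [hW]; exact ⟨Abar.zpow_mem hy i', by rw [hE]; exact hi'⟩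
      · apply (le_sup_left : U ≤ U ⊔ Subgroup.zpowers dbar)
        rw [hU]; exact ⟨Abar.zpow_mem hy j', hj'⟩
    · exact sup_le hUA (fun y hy => hzpA y hy)
  have hmap : (X ⊔ Subgroup.zpowers d).map (QuotientGroup.mk' M) = Abar := by
    rw [Subgroup.map_sup, MonoidHom.map_zpowers, hdbar, hXmap]
    exact hAsup.symm
  have hcardA : Nat.card ↥Abar = Nat.card ↥X * orderOf (QuotientGroup.mk' M d) := by
    rw [hdbar, hXcard]
    have h1 : Nat.card ↥(U ⊔ Subgroup.zpowers dbar) = Nat.card ↥U * orderOf dbar :=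
      bq_card_sup U dbar (fun h hh => hAb _ hdA _ (hUA hh))
        (Nat.Coprime.coprime_dvd_right (orderOf_dvd_of_pow_eq_one hdE)
          (by rw [hE]; exact Nat.Coprime.pow_right _ hUcop))
    rw [← h1, ← hAsup]
  exact ⟨X, d, hXc, hdX, hm ▸ hXcardm, hdred, hdpi, hmap, hcardA⟩

/-- The quotient of a B-group by a normal subgroup of odd order is a B-group. -/
theorem bq_main
    (hB : ∀ A B : Subgroup G, IsMulCommutative ↥A → IsMulCommutative ↥B →
      Nat.card ↥A = Nat.card ↥B → ∃ g : G, B = A.map (MulAut.conj g).toMonoidHom)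
    (M : Subgroup G) [M.Normal] (hM : Odd (Nat.card ↥M))
    (A B : Subgroup (G ⧸ M)) (hA : IsMulCommutative ↥A) (hBc : IsMulCommutative ↥B)
    (hcard : Nat.card ↥A = Nat.card ↥B) :
    ∃ g : G ⧸ M, B = A.map (MulAut.conj g).toMonoidHom := by
  have hA' : ∀ x ∈ A, ∀ y ∈ A, x * y = y * x := by
    intro x hx y hy
    exact congrArg Subtype.val ((isMulCommutative_iff.mp hA) ⟨x, hx⟩ ⟨y, hy⟩)
  have hB' : ∀ x ∈ B, ∀ y ∈ B, x * y = y * x := by
    intro x hx y hy
    exact congrArg Subtype.val ((isMulCommutative_iff.mp hBc) ⟨x, hx⟩ ⟨y, hy⟩)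
  have hcl := (Cfsg.Agent.S3909.result hB M).1
  obtain ⟨X₁, d₁, h11, h12, h13, h14, h15, h16, h17⟩ := bq_lift hB M hM A hA'
  obtain ⟨X₂, d₂, h21, h22, h23, h24, h25, h26, h27⟩ := bq_lift hB M hM B hB'
  have hX : Nat.card ↥X₁ = Nat.card ↥X₂ ∧
      orderOf (QuotientGroup.mk' M d₁) = orderOf (QuotientGroup.mk' M d₂) := by
    rw [h17, h27] at hcard
    have c12 : (Nat.card ↥X₁).Coprime (orderOf (QuotientGroup.mk' M d₂)) :=
      Nat.Coprime.coprime_dvd_right h25 (Nat.Coprime.pow_right _ h13)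
    have c21 : (Nat.card ↥X₂).Coprime (orderOf (QuotientGroup.mk' M d₁)) :=
      Nat.Coprime.coprime_dvd_right h15 (Nat.Coprime.pow_right _ h23)
    have e1 : Nat.card ↥X₁ ∣ Nat.card ↥X₂ :=
      c12.dvd_of_dvd_mul_right (hcard ▸ dvd_mul_right _ _)
    have e2 : Nat.card ↥X₂ ∣ Nat.card ↥X₁ :=
      c21.dvd_of_dvd_mul_right (hcard.symm ▸ dvd_mul_right _ _)
    have e3 := Nat.dvd_antisymm e1 e2
    refine ⟨e3, ?_⟩
    rw [e3] at hcard
    exact Nat.eq_of_mul_eq_mul_left Nat.card_pos hcard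
  have hd : orderOf d₁ = orderOf d₂ := bq_order_eq M hcl d₁ d₂ h14 h24 hX.2
  have hcardlift : ∀ (X : Subgroup G) (d : G), (∀ x ∈ X, d * x = x * d) →
      (Nat.card ↥X).Coprime (Nat.card ↥M) →
      (∀ q : ℕ, q.Prime → q ∣ orderOf d → q ∣ orderOf (QuotientGroup.mk' M d)) →
      orderOf (QuotientGroup.mk' M d) ∣ Nat.card ↥M ^ Nat.card (G ⧸ M) →
      Nat.card ↥(X ⊔ Subgroup.zpowers d) = Nat.card ↥X * orderOf d := by
    intro X d h2 h3 h4 h5
    apply bq_card_sup X d h2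
    apply Nat.coprime_of_dvd
    intro q hq hqX hqd
    have h6 : q ∣ Nat.card ↥M := hq.dvd_of_dvd_pow ((h4 q hq hqd).trans h5)
    exact (Nat.Prime.coprime_iff_not_dvd hq).mp (Nat.Coprime.coprime_dvd_left hqX h3) h6
  have hc1 : Nat.card ↥(X₁ ⊔ Subgroup.zpowers d₁) = Nat.card ↥(X₂ ⊔ Subgroup.zpowers d₂) := by
    rw [hcardlift X₁ d₁ h12 h13 h14 h15, hcardlift X₂ d₂ h22 h23 h24 h25, hX.1, hd]
  have hcm : ∀ (X : Subgroup G) (d : G), (∀ x ∈ X, ∀ y ∈ X, x * y = y * x) →
      (∀ x ∈ X, d * x = x * d) → IsMulCommutative ↥(X ⊔ Subgroup.zpowers d) := by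
    intro X d h1 h2
    rw [isMulCommutative_iff]
    intro a b
    exact Subtype.ext (bq_comm_sup X d h1 h2 a.1 a.2 b.1 b.2)
  obtain ⟨g, hg⟩ := hB _ _ (hcm X₁ d₁ h11 h12) (hcm X₂ d₂ h21 h22) hc1
  refine ⟨QuotientGroup.mk' M g, ?_⟩
  rw [← h26, ← h16, hg, Subgroup.map_map, Subgroup.map_map]
  congr 1

end

end Cfsg.Agent.Helper11
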