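import Mathlib
import Cfsg.Agent.Helper14.OInv

set_option autoImplicit false

namespace Cfsg.Agent.S2487P

open Matrix

section

variable {F : Type*} [Field F] [Fintype F]

theorem h11_zero_or_one (hF : Fintype.card F = 2) (a : F) : a = 0 ∨ a = 1 := by
  by_contra h
  push Not at h
  have h3 : 2 < Fintype.card F :=
    Fintype.two_lt_card_iff.mpr ⟨0, 1, a, zero_ne_one, fun h0 => h.1 h0.symm, fun h1 => h.2 h1.symm⟩
  omega

/-- a matrix fixing the basis vectors `e_i` (`i < n`) fixes every vector of their span -/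
theorem h11_W0_fix (n : ℕ) (A : Matrix (Fin (n + 1) ⊕ Fin (n + 1)) (Fin (n + 1) ⊕ Fin (n + 1)) F)
    (hfix : ∀ i : Fin n, A *ᵥ (Pi.single (Sum.inl i.castSucc) 1) = Pi.single (Sum.inl i.castSucc) 1)
    (w : Fin (n + 1) ⊕ Fin (n + 1) → F) (h1 : ∀ j, w (Sum.inr j) = 0)
    (h2 : w (Sum.inl (Fin.last n)) = 0) : A *ᵥ w = w := by
  classical
  obtain ⟨c, hc⟩ : ∃ c : Fin n → F, w = ∑ i : Fin n,
      c i • (Pi.single (Sum.inl i.castSucc) (1 : F) : Fin (n + 1) ⊕ Fin (n + 1) → F) := by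
    refine ⟨fun i => w (Sum.inl i.castSucc), ?_⟩
    funext k
    rw [Finset.sum_apply]
    rcases k with j | j
    · refine Fin.lastCases ?_ (fun i0 => ?_) j
      · rw [h2]
        symm
        apply Finset.sum_eq_zero
        intro i _
        have hne : (Fin.last n : Fin (n + 1)) ≠ Fin.castSucc i := (Fin.castSucc_ne_last i).symm
        simp [Pi.single_apply, hne]
      · rw [Finset.sum_eq_single i0]
        · simp
        · intro i _ hi
          have hne : (Fin.castSucc i0 : Fin (n + 1)) ≠ Fin.castSucc i :=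
            fun h => hi (Fin.castSucc_injective _ h).symm
          simp [Pi.single_apply, hne]
        · intro h; exact absurd (Finset.mem_univ _) h
    · rw [h1]
      symm
      apply Finset.sum_eq_zero
      intro i _
      simp [Pi.single_apply]
  rw [hc, Matrix.mulVec_sum]
  exact Finset.sum_congr rfl (fun i _ => by rw [Matrix.mulVec_smul, hfix])

theorem h11_pow_eight (hF : Fintype.card F = 2) (n : ℕ)
    (g : Matrix.GeneralLinearGroup (Fin (n + 1) ⊕ Fin (n + 1)) F)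
    (hg : g ∈ Cfsg.isometryGroup F (Cfsg.quadFormPlus (n + 1) F))
    (hfix : ∀ i : Fin n, (g : Matrix (Fin (n + 1) ⊕ Fin (n + 1)) (Fin (n + 1) ⊕ Fin (n + 1)) F) *ᵥ
      (Pi.single (Sum.inl i.castSucc) 1) = Pi.single (Sum.inl i.castSucc) 1) : g ^ 8 = 1 := by
  classical
  haveI : Fact (Nat.Prime 2) := ⟨Nat.prime_two⟩
  haveI : CharP F 2 := charP_of_card_eq_prime hF
  have h01 := h11_zero_or_one hF
  obtain ⟨A, hA⟩ : ∃ A : Matrix (Fin (n + 1) ⊕ Fin (n + 1)) (Fin (n + 1) ⊕ Fin (n + 1)) F,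
      A = (g : Matrix (Fin (n + 1) ⊕ Fin (n + 1)) (Fin (n + 1) ⊕ Fin (n + 1)) F) := ⟨_, rfl⟩
  rw [← hA] at hfix
  have hQ : ∀ u, Cfsg.quadFormPlus (n + 1) F (A *ᵥ u) = Cfsg.quadFormPlus (n + 1) F u := by
    rw [hA]; exact (Cfsg.Agent.Helper14.OInv.mem_isom_iff g).mp hg
  have hf : ∀ u v, Cfsg.sympForm (n + 1) F (A *ᵥ u) (A *ᵥ v) = Cfsg.sympForm (n + 1) F u v := by
    intro u v
    have h1 := Cfsg.Agent.Helper14.OInv.Q_add (A *ᵥ u) (A *ᵥ v)
    rw [← Matrix.mulVec_add, hQ, hQ, hQ, Cfsg.Agent.Helper14.OInv.Q_add] at h1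
    exact (add_left_cancel h1).symm
  have hperp : ∀ (v : Fin (n + 1) ⊕ Fin (n + 1) → F) (i : Fin n),
      (A *ᵥ v) (Sum.inr i.castSucc) = v (Sum.inr i.castSucc) := by
    intro v i
    have h := hf v (Pi.single (Sum.inl i.castSucc) 1)
    rw [hfix i, Cfsg.Agent.Helper6.sf_single_inl, Cfsg.Agent.Helper6.sf_single_inl] at h
    exact h
  have hW0 := h11_W0_fix n A hfix
  obtain ⟨e, he⟩ : ∃ e : Fin (n + 1) ⊕ Fin (n + 1) → F,
      e = Pi.single (Sum.inl (Fin.last n)) 1 := ⟨_, rfl⟩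
  obtain ⟨f0, hf0⟩ : ∃ f0 : Fin (n + 1) ⊕ Fin (n + 1) → F,
      f0 = Pi.single (Sum.inr (Fin.last n)) 1 := ⟨_, rfl⟩
  have he_l : e (Sum.inl (Fin.last n)) = 1 := by rw [he]; simp
  have he_r : ∀ j, e (Sum.inr j) = 0 := by intro j; rw [he]; simp
  have hf_l : f0 (Sum.inl (Fin.last n)) = 0 := by rw [hf0]; simp
  have hf_rl : f0 (Sum.inr (Fin.last n)) = 1 := by rw [hf0]; simp
  have hf_rc : ∀ i : Fin n, f0 (Sum.inr i.castSucc) = 0 := by
    intro i; rw [hf0]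
    have hne : (Fin.castSucc i : Fin (n + 1)) ≠ Fin.last n := Fin.castSucc_ne_last i
    simp [Pi.single_apply, hne]
  have hQ1 : ∀ u : Fin (n + 1) ⊕ Fin (n + 1) → F, (∀ i : Fin n, u (Sum.inr i.castSucc) = 0) →
      Cfsg.quadFormPlus (n + 1) F u = u (Sum.inl (Fin.last n)) * u (Sum.inr (Fin.last n)) := by
    intro u hu
    unfold Cfsg.quadFormPlus
    rw [Fin.sum_univ_castSucc]
    simp [hu]
  have hdec : ∀ (u : Fin (n + 1) ⊕ Fin (n + 1) → F) (α β : F),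
      α = u (Sum.inl (Fin.last n)) → β = u (Sum.inr (Fin.last n)) →
      (∀ i : Fin n, u (Sum.inr i.castSucc) = 0) →
      ∃ w : Fin (n + 1) ⊕ Fin (n + 1) → F, (∀ j, w (Sum.inr j) = 0) ∧
        w (Sum.inl (Fin.last n)) = 0 ∧ u = w + α • e + β • f0 := by
    intro u α β hα hβ hu
    refine ⟨u - α • e - β • f0, ?_, ?_, by abel⟩
    · intro j
      refine Fin.lastCases ?_ (fun i => ?_) j
      · simp [he_r, hf_rl, hβ]
      · simp [he_r, hf_rc, hu]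
    · simp [he_l, hf_l, hα]
  obtain ⟨p, hp⟩ : ∃ p : Fin (n + 1) ⊕ Fin (n + 1) → F, p = A *ᵥ e := ⟨_, rfl⟩
  obtain ⟨q, hq⟩ : ∃ q : Fin (n + 1) ⊕ Fin (n + 1) → F, q = A *ᵥ f0 := ⟨_, rfl⟩
  have hD : ∀ u : Fin (n + 1) ⊕ Fin (n + 1) → F, (∀ i : Fin n, u (Sum.inr i.castSucc) = 0) →
      (A *ᵥ u) (Sum.inl (Fin.last n)) = u (Sum.inl (Fin.last n)) * p (Sum.inl (Fin.last n))
        + u (Sum.inr (Fin.last n)) * q (Sum.inl (Fin.last n)) ∧
      (A *ᵥ u) (Sum.inr (Fin.last n)) = u (Sum.inl (Fin.last n)) * p (Sum.inr (Fin.last n))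
        + u (Sum.inr (Fin.last n)) * q (Sum.inr (Fin.last n)) := by
    intro u hu
    obtain ⟨w, hw1, hw2, huw⟩ := hdec u _ _ rfl rfl hu
    have hAu : A *ᵥ u = w + u (Sum.inl (Fin.last n)) • p + u (Sum.inr (Fin.last n)) • q := by
      conv_lhs => rw [huw]
      rw [Matrix.mulVec_add, Matrix.mulVec_add, Matrix.mulVec_smul, Matrix.mulVec_smul,
        hW0 w hw1 hw2, ← hp, ← hq]
    rw [hAu]
    constructor
    · simp [hw2]
    · simp [hw1]
  have hp1 : ∀ i : Fin n, p (Sum.inr i.castSucc) = 0 := by intro i; rw [hp, hperp, he_r]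
  have hq1 : ∀ i : Fin n, q (Sum.inr i.castSucc) = 0 := by intro i; rw [hq, hperp, hf_rc]
  have he1 : ∀ i : Fin n, e (Sum.inr i.castSucc) = 0 := fun i => he_r _
  have hQp : p (Sum.inl (Fin.last n)) * p (Sum.inr (Fin.last n)) = 0 := by
    rw [← hQ1 p hp1, hp, hQ, hQ1 e he1, he_r, mul_zero]
  have hQq : q (Sum.inl (Fin.last n)) * q (Sum.inr (Fin.last n)) = 0 := by
    rw [← hQ1 q hq1, hq, hQ, hQ1 f0 hf_rc, hf_l, zero_mul]
  have hQpq : (p (Sum.inl (Fin.last n)) + q (Sum.inl (Fin.last n))) *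
      (p (Sum.inr (Fin.last n)) + q (Sum.inr (Fin.last n))) = 1 := by
    have hpq1 : ∀ i : Fin n, (p + q) (Sum.inr i.castSucc) = 0 := by
      intro i; simp [hp1, hq1]
    have hef1 : ∀ i : Fin n, (e + f0) (Sum.inr i.castSucc) = 0 := by
      intro i; simp [he_r, hf_rc]
    have h := hQ1 (p + q) hpq1
    have h2 : Cfsg.quadFormPlus (n + 1) F (p + q) = 1 := by
      rw [hp, hq, ← Matrix.mulVec_add, hQ, hQ1 (e + f0) hef1]
      simp [he_l, he_r, hf_l, hf_rl]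
    rw [h2] at h
    simpa using h.symm
  have hcases : (p (Sum.inl (Fin.last n)) = 1 ∧ p (Sum.inr (Fin.last n)) = 0 ∧
        q (Sum.inl (Fin.last n)) = 0 ∧ q (Sum.inr (Fin.last n)) = 1) ∨
      (p (Sum.inl (Fin.last n)) = 0 ∧ p (Sum.inr (Fin.last n)) = 1 ∧
        q (Sum.inl (Fin.last n)) = 1 ∧ q (Sum.inr (Fin.last n)) = 0) := by
    have h11 : (1 : F) + 1 = 0 := CharTwo.add_self_eq_zero 1
    rcases h01 (p (Sum.inl (Fin.last n))) with h1 | h1 <;>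
      rcases h01 (p (Sum.inr (Fin.last n))) with h2 | h2 <;>
      rcases h01 (q (Sum.inl (Fin.last n))) with h3 | h3 <;>
      rcases h01 (q (Sum.inr (Fin.last n))) with h4 | h4 <;>
      rw [h1, h2] at hQp <;> rw [h3, h4] at hQq <;> rw [h1, h2, h3, h4] at hQpq <;>
      simp [h1, h2, h3, h4, h11] at hQp hQq hQpq ⊢
  have hAA : ∀ u : Fin (n + 1) ⊕ Fin (n + 1) → F, (∀ i : Fin n, u (Sum.inr i.castSucc) = 0) →
      (A *ᵥ (A *ᵥ u)) (Sum.inl (Fin.last n)) = u (Sum.inl (Fin.last n)) ∧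
      (A *ᵥ (A *ᵥ u)) (Sum.inr (Fin.last n)) = u (Sum.inr (Fin.last n)) := by
    intro u hu
    have hu' : ∀ i : Fin n, (A *ᵥ u) (Sum.inr i.castSucc) = 0 := by intro i; rw [hperp, hu]
    obtain ⟨h1, h2⟩ := hD u hu
    obtain ⟨h3, h4⟩ := hD (A *ᵥ u) hu'
    rw [h3, h4, h1, h2]
    rcases hcases with ⟨c1, c2, c3, c4⟩ | ⟨c1, c2, c3, c4⟩ <;> rw [c1, c2, c3, c4] <;>
      constructor <;> ring
  have hT1 : ∀ (v : Fin (n + 1) ⊕ Fin (n + 1) → F) (i : Fin n),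
      (A *ᵥ (A *ᵥ v) + v) (Sum.inr i.castSucc) = 0 := by
    intro v i
    rw [Pi.add_apply, hperp, hperp]
    exact CharTwo.add_self_eq_zero _
  have hT2 : ∀ u : Fin (n + 1) ⊕ Fin (n + 1) → F, (∀ i : Fin n, u (Sum.inr i.castSucc) = 0) →
      (∀ j, (A *ᵥ (A *ᵥ u) + u) (Sum.inr j) = 0) ∧
        (A *ᵥ (A *ᵥ u) + u) (Sum.inl (Fin.last n)) = 0 := by
    intro u hu
    obtain ⟨h1, h2⟩ := hAA u hu
    refine ⟨fun j => ?_, ?_⟩
    · refine Fin.lastCases ?_ (fun i => hT1 u i) j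
      rw [Pi.add_apply, h2]; exact CharTwo.add_self_eq_zero _
    · rw [Pi.add_apply, h1]; exact CharTwo.add_self_eq_zero _
  have hT3 : ∀ w : Fin (n + 1) ⊕ Fin (n + 1) → F, (∀ j, w (Sum.inr j) = 0) →
      w (Sum.inl (Fin.last n)) = 0 → A *ᵥ (A *ᵥ w) + w = 0 := by
    intro w h1 h2
    rw [hW0 w h1 h2, hW0 w h1 h2]
    funext k
    exact CharTwo.add_self_eq_zero (w k)
  have hcube : ∀ v : Fin (n + 1) ⊕ Fin (n + 1) → F,
      A *ᵥ (A *ᵥ (A *ᵥ (A *ᵥ (A *ᵥ (A *ᵥ v) + v)) + (A *ᵥ (A *ᵥ v) + v)))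
        + (A *ᵥ (A *ᵥ (A *ᵥ (A *ᵥ v) + v)) + (A *ᵥ (A *ᵥ v) + v)) = 0 := by
    intro v
    obtain ⟨h1, h2⟩ := hT2 (A *ᵥ (A *ᵥ v) + v) (hT1 v)
    exact hT3 _ h1 h2
  have hM3 : (A * A + 1) * (A * A + 1) * (A * A + 1) = 0 := by
    apply Matrix.mulVec_injective
    funext v
    simp only [← Matrix.mulVec_mulVec, Matrix.add_mulVec, Matrix.one_mulVec, Matrix.zero_mulVec]
    exact hcube v
  have h2A : ∀ X : Matrix (Fin (n + 1) ⊕ Fin (n + 1)) (Fin (n + 1) ⊕ Fin (n + 1)) F,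
      X + X = 0 := by
    intro X; ext i j
    exact CharTwo.add_self_eq_zero (X i j)
  have hsq : ∀ X : Matrix (Fin (n + 1) ⊕ Fin (n + 1)) (Fin (n + 1) ⊕ Fin (n + 1)) F,
      (X + 1) * (X + 1) = X * X + 1 := by
    intro X
    have h : (X + 1) * (X + 1) = X * X + (X + X) + 1 := by noncomm_ring
    rw [h, h2A, add_zero]
  have hA8 : A ^ 8 + 1 = 0 := by
    have h4 : (A * A + 1) * (A * A + 1) * ((A * A + 1) * (A * A + 1)) = 0 := by
      rw [← mul_assoc, hM3, zero_mul]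
    rw [hsq (A * A)] at h4
    rw [hsq (A * A * (A * A))] at h4
    calc A ^ 8 + 1 = A * A * (A * A) * (A * A * (A * A)) + 1 := by noncomm_ring
      _ = 0 := h4
  have hA8' : A ^ 8 = 1 := by
    calc A ^ 8 = A ^ 8 + (1 + 1) := by rw [h2A, add_zero]
      _ = (A ^ 8 + 1) + 1 := by rw [add_assoc]
      _ = 1 := by rw [hA8, zero_add]
  apply Units.ext
  rw [Units.val_pow_eq_pow_val, ← hA, hA8']
  rfl

end

end Cfsg.Agent.S2487P
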